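import Cfsg.Agent.G24.Data

/-!
The matrices of the letters lie in the Chevalley group and satisfy the relations.
-/

set_option autoImplicit false
set_option maxRecDepth 100000

namespace Cfsg.Agent.G24

open Cfsg.Agent.CosetEnum.He Cfsg.Lie Matrix

theorem dec_id : dec idc = 1 := by
  have h : ∀ p : chevG2.Idx × chevG2.Idx,
      dec idc p.1 p.2 = (1 : Matrix chevG2.Idx chevG2.Idx K4) p.1 p.2 := by decide +kernel
  ext i j
  exact h (i, j)

/-- power of a packed matrix -/
def cpow (c : List (ℕ × ℕ)) : ℕ → List (ℕ × ℕ)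
  | 0 => idc
  | n + 1 => mul (cpow c n) c

theorem length_cpow (c : List (ℕ × ℕ)) : ∀ n, (cpow c n).length = 14
  | 0 => rfl
  | n + 1 => by rw [cpow, length_mul, length_cpow c n]

theorem dec_cpow {c : List (ℕ × ℕ)} (h : c.length = 14) : ∀ n, dec (cpow c n) = dec c ^ n
  | 0 => by rw [cpow, dec_id, pow_zero]
  | n + 1 => by rw [cpow, dec_mul (length_cpow c n) h, dec_cpow h n, pow_succ]

/-- a packed matrix is a matrix of the Chevalley group -/
def IsG (c : List (ℕ × ℕ)) : Prop :=
  c.length = 14 ∧ ∃ g ∈ chevG2.group K4, (g : Matrix chevG2.Idx chevG2.Idx K4) = dec c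

theorem isG_id : IsG idc := ⟨rfl, 1, one_mem _, by rw [dec_id]; rfl⟩

theorem IsG.mul {c d : List (ℕ × ℕ)} (h1 : IsG c) (h2 : IsG d) : IsG (mul c d) := by
  obtain ⟨l1, g, hg, e1⟩ := h1
  obtain ⟨l2, h, hh, e2⟩ := h2
  refine ⟨by rw [length_mul, l1], g * h, mul_mem hg hh, ?_⟩
  rw [dec_mul l1 l2, ← e1, ← e2]; rfl

theorem isG_root {r : Fin chevG2.nroots} {t : K4} {c : List (ℕ × ℕ)} (hl : c.length = 14)
    (h : dec c = chevG2.xMat K4 r t) (h2 : mul c c = idc) : IsG c := by
  have h3 : dec c * dec c = 1 := by rw [← dec_mul hl hl, h2, dec_id]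
  refine ⟨hl, ⟨dec c, dec c, h3, h3⟩, Subgroup.subset_closure ⟨r, t, h⟩, rfl⟩

theorem R_ok : ∀ p ∈ R, p.2.2.length = 14 ∧ mul p.2.2 p.2.2 = idc := by decide +kernel

theorem R_mat : ∀ p ∈ R, ∀ q : chevG2.Idx × chevG2.Idx,
    dec p.2.2 q.1 q.2 = chevG2.xMat K4 p.1 (K4.ofN p.2.1) q.1 q.2 := by decide +kernel

theorem isG_R (k : ℕ) : IsG ((R.map fun p => p.2.2).getD k idc) := by
  by_cases hk : k < (R.map fun p => p.2.2).length
  · rw [List.getD_eq_getElem _ _ hk, List.getElem_map]
    have hm : R[k]'(by simpa using hk) ∈ R := List.getElem_mem _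
    exact isG_root (R_ok _ hm).1 (by ext i j; exact R_mat _ hm (i, j)) (R_ok _ hm).2
  · rw [List.getD_eq_default _ _ (by omega)]; exact isG_id

/-- product of root elements -/
def rw' (w : List ℕ) : List (ℕ × ℕ) :=
  w.foldr (fun k acc => mul ((R.map fun p => p.2.2).getD k idc) acc) idc

theorem isG_rw (w : List ℕ) : IsG (rw' w) := by
  induction w with
  | nil => exact isG_id
  | cons k w ih => exact (isG_R k).mul ih

theorem C_eq : ∀ x ∈ [1, 2, 3, 4, 5, 6], C x = rw' (W x) := by decide +kernel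

theorem isG_C (x : ℕ) : IsG (C x) := by
  by_cases hx : x ∈ [1, 2, 3, 4, 5, 6]
  · rw [C_eq x hx]; exact isG_rw _
  · have : C x = idc := by
      simp only [List.mem_cons, List.not_mem_nil, or_false, not_or] at hx
      match x, hx with
      | 0, _ => rfl
      | 1, h => exact absurd rfl h.1
      | 2, h => exact absurd rfl h.2.1
      | 3, h => exact absurd rfl h.2.2.1
      | 4, h => exact absurd rfl h.2.2.2.1
      | 5, h => exact absurd rfl h.2.2.2.2.1
      | 6, h => exact absurd rfl h.2.2.2.2.2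
      | n + 7, _ => rfl
    rw [this]; exact isG_id

/-- the element of the Chevalley group of a letter -/
noncomputable def gM (x : ℕ) : chevG2.group K4 :=
  ⟨(isG_C x).2.choose, (isG_C x).2.choose_spec.1⟩

theorem gM_coe (x : ℕ) :
    ((gM x : GL chevG2.Idx K4) : Matrix chevG2.Idx chevG2.Idx K4) = dec (C x) :=
  (isG_C x).2.choose_spec.2

theorem gM_eq {g h : chevG2.group K4} (H : ((g : GL chevG2.Idx K4) : Matrix chevG2.Idx chevG2.Idx K4) =
    ((h : GL chevG2.Idx K4) : Matrix chevG2.Idx chevG2.Idx K4)) : g = h :=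
  Subtype.ext (Units.ext H)

/-- code of a word -/
def wcode (w : List ℕ) : List (ℕ × ℕ) := w.foldr (fun x acc => mul (C x) acc) idc

theorem wcode_len (w : List ℕ) : (wcode w).length = 14 := by
  induction w with
  | nil => rfl
  | cons x w ih =>
      show (mul (C x) (wcode w)).length = 14
      rw [length_mul, (isG_C x).1]

theorem wcode_coe (w : List ℕ) :
    (((w.map gM).prod : GL chevG2.Idx K4) : Matrix chevG2.Idx chevG2.Idx K4) = dec (wcode w) := by
  induction w with
  | nil => rw [show wcode [] = idc from rfl, dec_id]; rfl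
  | cons x w ih =>
      show _ = dec (mul (C x) (wcode w))
      rw [dec_mul (isG_C x).1 (wcode_len w), ← ih, ← gM_coe, List.map_cons, List.prod_cons]
      rfl

end Cfsg.Agent.G24
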