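import Cfsg.Agent.G24.Gen
import Cfsg.Agent.CosetEnum.Suz.Pres
import Cfsg.Agent.S1059

/-!
The presented `G₂(4)` is the Chevalley group of type `G₂` over the field with four elements.
-/

set_option autoImplicit false
set_option maxRecDepth 100000

namespace Cfsg.Agent.G24

open Cfsg.Agent.CosetEnum Cfsg.Agent.CosetEnum.He Cfsg.Agent.CosetEnum.Suz Cfsg.Lie Matrix

theorem rel_ok : ∀ p ∈ SuzT6.RL, cpow (wcode p.1) p.2 = idc := by decide +kernel

theorem C_sq : ∀ x ∈ [1, 2, 3, 4, 5, 6], Cfsg.Agent.G24.mul (C x) (C x) = idc := by decide +kernel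

theorem C_out {x : ℕ} (hx : isLet 6 x = false) : C x = idc := by
  have h : ¬ (1 ≤ x ∧ x ≤ 6) := by
    rw [← isLet_iff, hx]; simp
  match x with
  | 0 => rfl
  | 1 => exact absurd ⟨le_refl _, by norm_num⟩ h
  | 2 => exact absurd ⟨by norm_num, by norm_num⟩ h
  | 3 => exact absurd ⟨by norm_num, by norm_num⟩ h
  | 4 => exact absurd ⟨by norm_num, by norm_num⟩ h
  | 5 => exact absurd ⟨by norm_num, by norm_num⟩ h
  | 6 => exact absurd ⟨by norm_num, by norm_num⟩ h
  | n + 7 => rfl

theorem gM_sq (x : ℕ) : gM x * gM x = 1 := by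
  apply gM_eq
  show ((gM x : GL chevG2.Idx K4) : Matrix chevG2.Idx chevG2.Idx K4) *
    ((gM x : GL chevG2.Idx K4) : Matrix chevG2.Idx chevG2.Idx K4) = 1
  rw [gM_coe, ← dec_mul (isG_C x).1 (isG_C x).1, ← dec_id]
  congr 1
  by_cases hx : isLet 6 x = true
  · rw [isLet_iff] at hx
    apply C_sq
    simp only [List.mem_cons, List.not_mem_nil, or_false]
    omega
  · rw [C_out (by simpa using hx)]
    decide +kernel

theorem gM_good : Good gM 6 SuzT6.iv SuzT6.RL where
  inv x := by
    show gM x = (gM x)⁻¹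
    exact eq_inv_of_mul_eq_one_left (gM_sq x)
  one x hx := by
    apply gM_eq
    rw [gM_coe, C_out hx, dec_id]; rfl
  rel p hp := by
    apply gM_eq
    have h1 : ((((p.1.map gM).prod ^ p.2 : chevG2.group K4) : GL chevG2.Idx K4) :
        Matrix chevG2.Idx chevG2.Idx K4) = dec (wcode p.1) ^ p.2 := by
      rw [← wcode_coe]; rfl
    rw [h1, ← dec_cpow (wcode_len _), rel_ok p hp, dec_id]; rfl

/-- the homomorphism -/
theorem exists_hom : ∃ φ : Q6 →* chevG2.group K4, ∀ x, φ (q6 x) = gM x :=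
  U6.univ (chevG2.group K4) gM gM_good

theorem exists_iso : Nonempty (Q6 ≃* chevG2.group K4) := by
  obtain ⟨φ, hφ⟩ := exists_hom
  have : IsSimpleGroup Q6 := simple6
  have : Finite Q6 := Nat.finite_of_card_ne_zero (by rw [card6]; norm_num)
  have hcard : Nat.card (chevG2.group K4) = 251596800 := by
    have := Cfsg.Agent.S1059.result (F := K4) (q := 4) rfl
    rw [this]; norm_num
  have hne : φ.ker ≠ ⊤ := by
    intro h
    have h1 : φ (q6 1) = 1 := by
      have : q6 1 ∈ φ.ker := by rw [h]; exact Subgroup.mem_top _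
      exact this
    rw [hφ] at h1
    have h2 := congrArg (fun g : chevG2.group K4 =>
      ((g : GL chevG2.Idx K4) : Matrix chevG2.Idx chevG2.Idx K4)) h1
    simp only [gM_coe] at h2
    have h3 : dec (C 1) = (1 : Matrix chevG2.Idx chevG2.Idx K4) := h2
    have h4 : ¬ ∀ q : chevG2.Idx × chevG2.Idx,
      dec (C 1) q.1 q.2 = (1 : Matrix chevG2.Idx chevG2.Idx K4) q.1 q.2 := by decide +kernel
    exact h4 fun q => by rw [h3]
  have hinj : Function.Injective φ := by
    rw [← MonoidHom.ker_eq_bot_iff]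
    rcases φ.normal_ker.eq_bot_or_eq_top with h | h
    · exact h
    · exact absurd h hne
  have : Finite (chevG2.group K4) := Nat.finite_of_card_ne_zero (by rw [hcard]; norm_num)
  have hbij : Function.Bijective φ := by
    rw [Nat.bijective_iff_injective_and_card]
    exact ⟨hinj, by rw [card6, hcard]⟩
  exact ⟨MulEquiv.ofBijective φ hbij⟩

end Cfsg.Agent.G24
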