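import Cfsg.Agent.CosetEnum.He.K4
import Cfsg.Prelude.Def_ChevG2

/-!
Packed matrices over the field with four elements; Chevalley group of type `G₂`.
-/

set_option autoImplicit false

namespace Cfsg.Agent.G24

open Cfsg.Agent.CosetEnum.He Cfsg.Lie Matrix

/-- element with given bits -/
def kb (lo hi : Bool) : K4 := K4.ofN (lo.toNat + 2 * hi.toNat)

/-- coordinate of a packed vector -/
def el (v : ℕ × ℕ) (j : ℕ) : K4 := kb (v.1.testBit j) (v.2.testBit j)

/-- sum of packed vectors -/
def vadd (u v : ℕ × ℕ) : ℕ × ℕ := (u.1 ^^^ v.1, u.2 ^^^ v.2)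

/-- multiplication of a packed vector by `w` -/
def vw (v : ℕ × ℕ) : ℕ × ℕ := (v.2, v.1 ^^^ v.2)

theorem kb_add : ∀ a b c d : Bool, kb (a ^^ c) (b ^^ d) = kb a b + kb c d := by decide

theorem kb_w : ∀ a b : Bool, kb b (a ^^ b) = K4.ofN 2 * kb a b := by decide

theorem kb_split : ∀ (a b : Bool) (x : K4),
    kb a b * x = (if a then x else 0) + (if b then K4.ofN 2 * x else 0) := by decide

theorem el_vadd (u v : ℕ × ℕ) (j : ℕ) : el (vadd u v) j = el u j + el v j := by
  simp only [el, vadd, Nat.testBit_xor, kb_add]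

theorem el_vw (v : ℕ × ℕ) (j : ℕ) : el (vw v) j = K4.ofN 2 * el v j := by
  simp only [el, vw, Nat.testBit_xor, kb_w]

theorem el_zero (j : ℕ) : el (0, 0) j = 0 := by
  simp only [el, Nat.zero_testBit]; decide

/-- linear combination of rows -/
def comb (v : ℕ × ℕ) : List (ℕ × ℕ) → ℕ → ℕ × ℕ → ℕ × ℕ
  | [], _, acc => acc
  | b :: B, j, acc =>
      comb v B (j + 1)
        (bif v.2.testBit j then vadd (bif v.1.testBit j then vadd acc b else acc) (vw b)
          else (bif v.1.testBit j then vadd acc b else acc))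

theorem el_comb (v : ℕ × ℕ) : ∀ (B : List (ℕ × ℕ)) (j : ℕ) (acc : ℕ × ℕ) (c : ℕ),
    el (comb v B j acc) c =
      el acc c + ∑ k ∈ Finset.range B.length, el v (j + k) * el (B.getD k (0, 0)) c
  | [], j, acc, c => by simp [comb]
  | b :: B, j, acc, c => by
      rw [comb, el_comb v B (j + 1), List.length_cons, Finset.sum_range_succ']
      simp only [List.getD_cons_zero, List.getD_cons_succ, Nat.add_zero]
      have h1 : ∀ k, j + 1 + k = j + (k + 1) := fun k => by ring
      simp only [h1]
      rw [add_comm (∑ k ∈ _, _), ← add_assoc]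
      congr 1
      have h2 : el v j * el b c = (if v.1.testBit j then el b c else 0) +
          (if v.2.testBit j then K4.ofN 2 * el b c else 0) := kb_split _ _ _
      rw [h2]
      cases v.1.testBit j <;> cases v.2.testBit j <;>
        simp [el_vadd, el_vw, add_assoc]

/-- product of packed matrices -/
def mul (A B : List (ℕ × ℕ)) : List (ℕ × ℕ) := A.map fun v => comb v B 0 (0, 0)

/-- number of an index -/
def ix : chevG2.Idx → ℕ
  | .inl i => i.1
  | .inr i => 2 + i.1

/-- the matrix of a packed matrix -/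
def dec (A : List (ℕ × ℕ)) : Matrix chevG2.Idx chevG2.Idx K4 :=
  fun i j => el (A.getD (ix i) (0, 0)) (ix j)

theorem sum_idx (f : ℕ → K4) : ∑ i : chevG2.Idx, f (ix i) = ∑ k ∈ Finset.range 14, f k := by
  rw [Fintype.sum_sum_type]
  have h1 : ∑ i : Fin chevG2.rank, f (ix (Sum.inl i)) = ∑ k ∈ Finset.range 2, f k :=
    Fin.sum_univ_eq_sum_range (fun k => f k) 2
  have h2 : ∑ i : Fin chevG2.nroots, f (ix (Sum.inr i)) = ∑ k ∈ Finset.range 12, f (2 + k) :=
    Fin.sum_univ_eq_sum_range (fun k => f (2 + k)) 12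
  rw [h1, h2, show (14 : ℕ) = 2 + 12 from rfl, Finset.sum_range_add]

theorem dec_mul {A B : List (ℕ × ℕ)} (hA : A.length = 14) (hB : B.length = 14) :
    dec (mul A B) = dec A * dec B := by
  ext i j
  rw [Matrix.mul_apply]
  have hi : ix i < 14 := by
    rcases i with i | i
    · have := i.2; have h : chevG2.rank = 2 := rfl; simp only [ix]; omega
    · have := i.2; have h : chevG2.nroots = 12 := rfl; simp only [ix]; omega
  have h1 : (mul A B).getD (ix i) (0, 0) = comb (A.getD (ix i) (0, 0)) B 0 (0, 0) := by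
    rw [mul, List.getD_eq_getElem _ _ (by rw [List.length_map]; omega), List.getElem_map,
      List.getD_eq_getElem _ _ (by omega)]
  show el ((mul A B).getD (ix i) (0, 0)) (ix j) = ∑ k, el _ _ * el _ _
  rw [h1, el_comb, el_zero, zero_add, hB]
  rw [← sum_idx (fun k => el (A.getD (ix i) (0, 0)) (0 + k) * el (B.getD k (0, 0)) (ix j))]
  simp only [zero_add]

theorem length_mul (A B : List (ℕ × ℕ)) : (mul A B).length = A.length := by
  simp [mul]

end Cfsg.Agent.G24
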